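import Mathlib
import Cfsg.Agent.Linear.Orders

/-! Subfield subgroups of `PSL_2`. -/

set_option autoImplicit false
set_option linter.unusedSectionVars false

namespace Cfsg.Agent.PSLTwo25

open Matrix
open scoped MatrixGroups

variable {F K : Type*} [Field F] [Fintype F] [Field K] [Fintype K]

theorem exists_ringHom_of_card_pow {m : ℕ} (hm : 1 ≤ m) (h : Fintype.card K ^ m = Fintype.card F) :
    Nonempty (K →+* F) := by
  obtain ⟨a, hp, hK⟩ := FiniteField.card K (ringChar K)
  obtain ⟨b, hp', hF⟩ := FiniteField.card F (ringChar F)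
  have hpp : ringChar K = ringChar F := by
    have h1 : ringChar K ∣ (ringChar F) ^ (b : ℕ) := by
      rw [← hF, ← h, hK, ← pow_mul]
      exact dvd_pow_self _ (Nat.mul_ne_zero a.ne_zero (by omega))
    exact (Nat.prime_dvd_prime_iff_eq hp hp').1 (hp.dvd_of_dvd_pow h1)
  have : Fact (Nat.Prime (ringChar K)) := ⟨hp⟩
  have : CharP F (ringChar K) := hpp ▸ inferInstance
  letI : Algebra (ZMod (ringChar K)) K := ZMod.algebra K _
  letI : Algebra (ZMod (ringChar K)) F := ZMod.algebra F _
  have h1 := Module.card_eq_pow_finrank (K := ZMod (ringChar K)) (V := K)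
  have h3 := Module.card_eq_pow_finrank (K := ZMod (ringChar K)) (V := F)
  rw [ZMod.card] at h1 h3
  rw [h1, h3, ← pow_mul] at h
  have h4 := Nat.pow_right_injective hp.two_le h
  exact (FiniteField.nonempty_algHom_of_finrank_dvd (F := ZMod (ringChar K)) (K := K) (L := F)
    ⟨m, h4.symm⟩).map AlgHom.toRingHom

theorem exists_psl_embedding (φ : K →+* F) :
    ∃ H : Subgroup (Matrix.ProjectiveSpecialLinearGroup (Fin 2) F),
      Nonempty (H ≃* Matrix.ProjectiveSpecialLinearGroup (Fin 2) K) := by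
  set f : Matrix.SpecialLinearGroup (Fin 2) K →* Matrix.ProjectiveSpecialLinearGroup (Fin 2) F :=
    (QuotientGroup.mk' _).comp (Matrix.SpecialLinearGroup.map φ) with hf
  have hker : f.ker = Subgroup.center (Matrix.SpecialLinearGroup (Fin 2) K) := by
    ext g
    rw [MonoidHom.mem_ker, hf, MonoidHom.comp_apply, QuotientGroup.mk'_apply,
      QuotientGroup.eq_one_iff, Matrix.SpecialLinearGroup.mem_center_iff,
      Matrix.SpecialLinearGroup.mem_center_iff]
    constructor
    · rintro ⟨r, hr, hrg⟩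
      have e00 := congrFun (congrFun hrg 0) 0
      simp [Matrix.SpecialLinearGroup.map_apply_coe] at e00
      refine ⟨(g : Matrix (Fin 2) (Fin 2) K) 0 0, φ.injective ?_, ?_⟩
      · rw [map_pow, ← e00, hr, map_one]
      · ext i j
        apply φ.injective
        have := congrFun (congrFun hrg i) j
        simp [Matrix.SpecialLinearGroup.map_apply_coe] at this
        by_cases hij : i = j
        · subst hij; simp [← e00, ← this]
        · simp [hij] at this
          simp [hij, ← this]
    · rintro ⟨r, hr, hrg⟩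
      refine ⟨φ r, by rw [← map_pow, hr, map_one], ?_⟩
      ext i j
      simp only [Matrix.SpecialLinearGroup.map_apply_coe, RingHom.mapMatrix_apply, Matrix.map_apply]
      rw [← hrg]
      by_cases hij : i = j
      · subst hij; simp
      · simp [hij]
  exact ⟨f.range, ⟨(QuotientGroup.quotientKerEquivRange f).symm.trans
    (QuotientGroup.quotientMulEquivOfEq hker)⟩⟩

/-- In the quotient by the centre, square-class rescalings of `GL_2(K)` land in `PSL_2(F)`. -/
theorem exists_pgl_embedding (φ : K →+* F) (hsq : ∀ a : K, IsSquare (φ a)) :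
    ∃ H : Subgroup (Matrix.ProjectiveSpecialLinearGroup (Fin 2) F),
      Nonempty (H ≃* Matrix.ProjGenLinGroup (Fin 2) K) := by
  classical
  choose s hs using hsq
  let M : GL (Fin 2) K → Matrix (Fin 2) (Fin 2) F := fun g =>
    (s (g : Matrix (Fin 2) (Fin 2) K).det)⁻¹ • (g : Matrix (Fin 2) (Fin 2) K).map φ
  have hs0 : ∀ g : GL (Fin 2) K, s (g : Matrix (Fin 2) (Fin 2) K).det ≠ 0 := by
    intro g h
    have h1 := hs (g : Matrix (Fin 2) (Fin 2) K).det
    rw [h, mul_zero, map_eq_zero] at h1
    exact (Matrix.GeneralLinearGroup.det_ne_zero g) h1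
  have hdet : ∀ g, (M g).det = 1 := by
    intro g
    have h1 : ((g : Matrix (Fin 2) (Fin 2) K).map φ).det = φ (g : Matrix (Fin 2) (Fin 2) K).det :=
      (RingHom.map_det φ _).symm
    simp only [M, Matrix.det_smul, Fintype.card_fin, h1, hs]
    field_simp [hs0 g]
  let lift : GL (Fin 2) K → Matrix.SpecialLinearGroup (Fin 2) F := fun g => ⟨M g, hdet g⟩
  have hscal : ∀ (A B : Matrix.SpecialLinearGroup (Fin 2) F) (a : F),
      (A : Matrix (Fin 2) (Fin 2) F) = a • (B : Matrix (Fin 2) (Fin 2) F) →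
      (QuotientGroup.mk A : Matrix.ProjectiveSpecialLinearGroup (Fin 2) F) = QuotientGroup.mk B := by
    intro A B a h
    have ha : a ^ 2 = 1 := by
      have := congrArg Matrix.det h
      rwa [Matrix.det_smul, A.2, B.2, mul_one, Fintype.card_fin, eq_comm] at this
    rw [QuotientGroup.eq, Matrix.SpecialLinearGroup.mem_center_iff]
    have ha' : a⁻¹ ^ 2 = 1 := by rw [inv_pow, ha, inv_one]
    refine ⟨a⁻¹, by simpa using ha', ?_⟩
    have ha0 : a ≠ 0 := fun h0 => by simp [h0] at ha
    have hAB : ((A⁻¹ * B : Matrix.SpecialLinearGroup (Fin 2) F) : Matrix (Fin 2) (Fin 2) F) =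
        a⁻¹ • ((A⁻¹ * A : Matrix.SpecialLinearGroup (Fin 2) F) : Matrix (Fin 2) (Fin 2) F) := by
      rw [Matrix.SpecialLinearGroup.coe_mul, Matrix.SpecialLinearGroup.coe_mul, h, Matrix.mul_smul,
        inv_smul_smul₀ ha0]
    rw [hAB, inv_mul_cancel, Matrix.SpecialLinearGroup.coe_one]
    simp [Matrix.smul_one_eq_diagonal]
  let f : GL (Fin 2) K →* Matrix.ProjectiveSpecialLinearGroup (Fin 2) F :=
    MonoidHom.mk' (fun g => QuotientGroup.mk (lift g)) fun g h => by
      rw [← QuotientGroup.mk_mul]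
      refine hscal _ _ ((s (g * h : GL (Fin 2) K).1.det)⁻¹ * (s g.1.det * s h.1.det)) ?_
      have hmul : ((g * h : GL (Fin 2) K) : Matrix (Fin 2) (Fin 2) K).map φ =
          (g : Matrix (Fin 2) (Fin 2) K).map φ * (h : Matrix (Fin 2) (Fin 2) K).map φ := by
        rw [Matrix.GeneralLinearGroup.coe_mul, Matrix.map_mul]
      show M (g * h) = _ • (M g * M h)
      simp only [M, hmul, Matrix.smul_mul, Matrix.mul_smul, smul_smul]
      congr 1
      field_simp [hs0 g, hs0 h]
  have hker : f.ker = Subgroup.center (GL (Fin 2) K) := by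
    ext g
    rw [MonoidHom.mem_ker, Matrix.GeneralLinearGroup.center_eq_range_scalar]
    simp only [f, MonoidHom.mk'_apply, QuotientGroup.eq_one_iff, Matrix.SpecialLinearGroup.mem_center_iff]
    constructor
    · rintro ⟨r, _, hr⟩
      have h1 : ∀ i j, φ ((g : Matrix (Fin 2) (Fin 2) K) i j) =
          if i = j then s (g : Matrix (Fin 2) (Fin 2) K).det * r else 0 := by
        intro i j
        have := congrFun (congrFun hr i) j
        simp [lift, M, Matrix.smul_apply, Matrix.diagonal_apply] at this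
        split_ifs at this with hij
        · rw [if_pos hij, this, mul_inv_cancel_left₀ (hs0 g)]
        · rw [if_neg hij]
          simpa [hs0 g] using this
      have hg : (g : Matrix (Fin 2) (Fin 2) K) = Matrix.scalar (Fin 2) ((g : Matrix (Fin 2) (Fin 2) K) 0 0) := by
        ext i j
        apply φ.injective
        rw [h1]
        by_cases hij : i = j
        · subst hij; simp [h1]
        · simp [hij]
      have hne : (g : Matrix (Fin 2) (Fin 2) K) 0 0 ≠ 0 := by
        intro h0
        refine Matrix.GeneralLinearGroup.det_ne_zero g ?_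
        rw [hg, h0]; simp
      exact ⟨Units.mk0 _ hne, Units.ext hg.symm⟩
    · rintro ⟨u, rfl⟩
      refine ⟨(s (Matrix.GeneralLinearGroup.scalar (Fin 2) u : GL (Fin 2) K).1.det)⁻¹ * φ u, ?_, ?_⟩
      · have := hdet (Matrix.GeneralLinearGroup.scalar (Fin 2) u)
        simp [M, Matrix.det_smul, Matrix.map_apply, Matrix.det_fin_two, sq] at this ⊢
        linear_combination this
      · ext i j
        simp only [lift, M]
        by_cases hij : i = j
        · subst hij; simp
        · simp [hij]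
  exact ⟨f.range, ⟨(QuotientGroup.quotientKerEquivRange f).symm.trans
    (QuotientGroup.quotientMulEquivOfEq hker)⟩⟩

theorem odd_of_pgl_subgroup {m : ℕ} (hq : Odd (Fintype.card F)) (h : Fintype.card K ^ m = Fintype.card F)
    (hsub : ∃ H : Subgroup (Matrix.ProjectiveSpecialLinearGroup (Fin 2) F),
      Nonempty (H ≃* Matrix.ProjGenLinGroup (Fin 2) K)) : Even m := by
  obtain ⟨H, ⟨e⟩⟩ := hsub
  by_contra hm
  rw [Nat.not_even_iff_odd] at hm
  have hd := Subgroup.card_subgroup_dvd_card H
  rw [Nat.card_congr e.toEquiv, Linear.card_PGL_eq_card_SL, Linear.card_SL_two] at hd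
  have hG := Linear.card_PSL_two_mul (F := F)
  rw [Linear.gcd_two_of_odd hq] at hG
  obtain ⟨c, hc⟩ := hd
  rw [hc] at hG
  set r := Fintype.card K with hr
  have hr1 : 1 < r := Fintype.one_lt_card
  obtain ⟨k, rfl⟩ : ∃ k, m = k + 1 := ⟨m - 1, by obtain ⟨j, hj⟩ := hm; omega⟩
  set S := ∑ i ∈ Finset.range (k + 1), (r ^ 2) ^ i with hS
  have hrodd : Odd r := by
    rw [← h] at hq
    exact (Nat.odd_pow_iff (by omega)).1 hq
  have hSodd : Odd S := by
    rw [hS, Finset.odd_sum_iff_odd_card_odd, Finset.filter_true_of_mem fun i _ => hrodd.pow.pow,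
      Finset.card_range]
    exact hm
  have hgeo : S * (r ^ 2 - 1) = (r ^ 2) ^ (k + 1) - 1 :=
    geom_sum_mul_of_one_le (Nat.one_le_pow _ _ (by omega)) _
  have hfac : ∀ x : ℕ, 1 ≤ x → x * (x - 1) * (x + 1) = x * (x ^ 2 - 1) := fun x hx => by
    obtain ⟨y, rfl⟩ : ∃ y, x = y + 1 := ⟨x - 1, by omega⟩
    rw [Nat.add_sub_cancel, show (y + 1) ^ 2 - 1 = y * (y + 2) by
      have : (y + 1) ^ 2 = y * (y + 2) + 1 := by ring
      omega]
    ring
  rw [← h, hfac r (by omega), hfac (r ^ (k + 1)) (Nat.one_le_pow _ _ (by omega)),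
    show (r ^ (k + 1)) ^ 2 = (r ^ 2) ^ (k + 1) by ring, ← hgeo, pow_succ r k] at hG
  have hpos : 0 < r * (r ^ 2 - 1) := by
    have : 1 < r ^ 2 := Nat.one_lt_pow (by omega) hr1
    exact Nat.mul_pos (by omega) (by omega)
  have heq : 2 * c = r ^ k * S := by
    apply Nat.eq_of_mul_eq_mul_left hpos
    linear_combination hG
  have : Odd (2 * c) := heq ▸ hrodd.pow.mul hSodd
  exact absurd this (Nat.not_odd_iff_even.2 ⟨c, by ring⟩)

theorem isSquare_image_of_even {m : ℕ} (φ : K →+* F) (hq : Odd (Fintype.card F))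
    (h : Fintype.card K ^ m = Fintype.card F) (hm : Even m) (a : K) : IsSquare (φ a) := by
  by_cases ha : a = 0
  · simp [ha]
  have hF2 : ringChar F ≠ 2 := fun h2 => (Nat.not_even_iff_odd.2 hq)
    (Nat.even_iff.2 (FiniteField.even_card_iff_char_two.1 h2))
  rw [FiniteField.isSquare_iff hF2 ((map_ne_zero φ).2 ha), ← map_pow]
  set r := Fintype.card K with hr
  have hr1 : 1 < r := Fintype.one_lt_card
  have hdvd : r - 1 ∣ Fintype.card F / 2 := by
    obtain ⟨l, rfl⟩ := hm
    have hrodd : Odd r := by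
      rw [← h] at hq
      exact (Nat.odd_pow_iff (fun h0 => by
        rw [h0, pow_zero] at h; exact absurd h.symm (Fintype.one_lt_card (α := F)).ne')).1 hq
    have h2 : 2 * (r - 1) ∣ Fintype.card F - 1 := by
      have h1 : r ^ 2 - 1 ∣ (r ^ 2) ^ l - 1 := by simpa using Nat.sub_dvd_pow_sub_pow (r ^ 2) 1 l
      rw [← pow_mul, show 2 * l = l + l by ring, h] at h1
      refine dvd_trans ?_ h1
      obtain ⟨u, hu⟩ := hrodd
      refine ⟨u + 1, ?_⟩
      rw [hu, Nat.add_sub_cancel, show (2 * u + 1) ^ 2 = 2 * (2 * u) * (u + 1) + 1 by ring, Nat.add_sub_cancel]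
    obtain ⟨c, hc⟩ := h2
    refine ⟨c, ?_⟩
    have := Fintype.one_lt_card (α := F)
    rw [show Fintype.card F = 2 * ((r - 1) * c) + 1 by rw [← mul_assoc, ← hc]; omega]
    omega
  obtain ⟨c, hc⟩ := hdvd
  rw [hc, pow_mul, FiniteField.pow_card_sub_one_eq_one a ha, one_pow, map_one]

end Cfsg.Agent.PSLTwo25
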