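import Mathlib
import Cfsg.Agent.MaxSub.Dickson.Finite
import Cfsg.Agent.Linear.Orders
import Cfsg.Agent.Linear.Transvection

/-!
Consequences of Dickson's list inside `PSL(2, q)`: the dihedral maximal subgroups, the order bound
for proper subgroups and solubility of the small cases.
-/

set_option autoImplicit false
set_option linter.unusedSectionVars false

open scoped OnePoint MatrixGroups

namespace Cfsg.Agent.PSLTwo25.DicksonPSL

open Matrix MulAction Cfsg.Agent.MaxSub.Dickson

variable {F : Type*} [Field F] [Fintype F] [DecidableEq F]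

local notation "q" => Fintype.card F
local notation "d" => Nat.gcd 2 (Fintype.card F - 1)

theorem orderOf_le_card_succ (g : PGL(2, F)) : orderOf g ≤ q + 1 := by
  classical
  induction g using ProjGenLinGroup.induction_on with | mk A =>
  let M : Matrix (Fin 2) (Fin 2) F := (A : Matrix (Fin 2) (Fin 2) F)
  have hpow : ∀ k : ℕ, ∃ x : F × F, M ^ k = x.1 • M + x.2 • 1 := by
    intro k
    induction k with
    | zero => exact ⟨(0, 1), by simp⟩
    | succ k ih =>
      obtain ⟨⟨x, y⟩, h⟩ := ih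
      refine ⟨(x * (M 0 0 + M 1 1) + y, -(x * M.det)), ?_⟩
      rw [pow_succ, h]
      ext i j
      fin_cases i <;> fin_cases j <;>
        simp [Matrix.mul_apply, Fin.sum_univ_two, Matrix.det_fin_two] <;> ring
  choose x hx using hpow
  set g : PGL(2, F) := ProjGenLinGroup.mk A with hg
  have hval : ∀ k, ((A ^ k : GL (Fin 2) F) : Matrix (Fin 2) (Fin 2) F) = M ^ k := fun k => by simp [M]
  have key : ∀ i j : ℕ, ∀ c : F, c ≠ 0 → M ^ j = c • M ^ i → g ^ i = g ^ j := by
    intro i j c hc h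
    rw [hg, ← map_pow, ← map_pow]
    refine ProjGenLinGroup.mk_eq_mk_iff.2 ⟨Units.mk0 c hc, Units.ext ?_⟩
    rw [Units.val_mul, hval, hval, h, GeneralLinearGroup.coe_scalar]
    ext a b
    fin_cases a <;> fin_cases b <;> simp [Matrix.mul_apply, Fin.sum_univ_two, mul_comm]
  have hne : ∀ k, x k ≠ (0, 0) := by
    intro k h
    have h1 := congrArg Matrix.det (hx k)
    rw [h, Matrix.det_pow] at h1
    simp at h1
    exact A.det_ne_zero h1.1
  let f : Fin (orderOf g) → OnePoint F := fun k =>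
    if (x k).1 = 0 then ∞ else (((x k).2 / (x k).1 : F) : OnePoint F)
  have hf : Function.Injective f := by
    intro i j hij
    have : g ^ (i : ℕ) = g ^ (j : ℕ) := by
      simp only [f] at hij
      rcases eq_or_ne (x i).1 0 with hi | hi <;> rcases eq_or_ne (x j).1 0 with hj | hj
      · have hi2 : (x i).2 ≠ 0 := fun e => hne i (Prod.ext hi e)
        have hj2 : (x j).2 ≠ 0 := fun e => hne j (Prod.ext hj e)
        refine key i j ((x j).2 / (x i).2) (div_ne_zero hj2 hi2) ?_
        simp only [hx, hi, hj, zero_smul, zero_add, smul_smul, div_mul_cancel₀ _ hi2]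
      · rw [if_pos hi, if_neg hj] at hij
        exact absurd hij (OnePoint.infty_ne_coe _)
      · rw [if_neg hi, if_pos hj] at hij
        exact absurd hij (OnePoint.coe_ne_infty _)
      · rw [if_neg hi, if_neg hj, OnePoint.coe_eq_coe, div_eq_div_iff hi hj] at hij
        refine key i j ((x j).1 / (x i).1) (div_ne_zero hj hi) ?_
        rw [hx i, hx j, smul_add, smul_smul, smul_smul, div_mul_cancel₀ _ hi]
        congr 2
        field_simp
        linear_combination -hij
    exact Fin.ext (pow_injOn_Iio_orderOf i.2 j.2 this)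
  have h := Nat.card_le_card_of_injective f hf
  rwa [Nat.card_eq_fintype_card, Fintype.card_fin, Nat.card_eq_fintype_card,
    show Fintype.card (OnePoint F) = q + 1 from Fintype.card_option] at h

theorem lsub_normal : (lsub F).Normal := by
  refine ⟨fun a ha g => ?_⟩
  induction g using ProjGenLinGroup.induction_on with | mk B =>
  induction a using ProjGenLinGroup.induction_on with | mk A =>
  rw [mk_mem_lsub_iff] at ha
  rw [← map_inv, ← map_mul, ← map_mul, mk_mem_lsub_iff]
  rw [← Matrix.GeneralLinearGroup.val_det_apply, map_mul, map_mul, map_inv, mul_comm (GeneralLinearGroup.det B),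
    mul_inv_cancel_right, Matrix.GeneralLinearGroup.val_det_apply]
  exact ha

theorem range_toPGL :
    (ProjectiveSpecialLinearGroup.toPGL : ProjectiveSpecialLinearGroup (Fin 2) F →* PGL(2, F)).range =
      lsub F := by
  ext g
  constructor
  · rintro ⟨x, rfl⟩
    induction x using QuotientGroup.induction_on with | H S =>
    exact ⟨S, rfl⟩
  · rintro ⟨S, rfl⟩
    exact ⟨QuotientGroup.mk S, rfl⟩

theorem card_lsub :
    Nat.card (lsub F) = Nat.card (ProjectiveSpecialLinearGroup (Fin 2) F) := by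
  rw [← range_toPGL]
  exact (Nat.card_congr (MonoidHom.ofInjective ProjectiveSpecialLinearGroup.toPGL_injective).toEquiv).symm

theorem d_mul_card_lsub : d * Nat.card (lsub F) = q * (q - 1) * (q + 1) := by
  rw [card_lsub, ← Linear.card_SL_two, ← Linear.card_PSL_mul, Fintype.card_fin]

theorem index_lsub : (lsub F).index = d := by
  have h := (lsub F).index_mul_card
  rw [Linear.card_PGL_eq_card_SL, Linear.card_SL_two, ← d_mul_card_lsub] at h
  exact Nat.eq_of_mul_eq_mul_right Nat.card_pos h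

theorem d_cases : (Even q ∧ d = 1) ∨ (Odd q ∧ d = 2) := by
  have h1 := Fintype.one_lt_card (α := F)
  rcases Nat.even_or_odd q with h | h
  · left
    refine ⟨h, Nat.coprime_two_left.2 ?_⟩
    obtain ⟨c, hc⟩ := h
    exact ⟨c - 1, by omega⟩
  · right
    refine ⟨h, Nat.gcd_eq_left ?_⟩
    obtain ⟨c, hc⟩ := h
    exact ⟨c, by omega⟩

variable {K : Type*} [Field K] [DecidableEq K] [Algebra F K]

theorem card_tor_inf {a b : OnePoint K} {m : ℕ} (hm : IsPair F a b m) :
    d * Nat.card ↥(tor (F := F) a b ⊓ lsub F) = m := by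
  obtain ⟨hcard, -, hodd⟩ := hm.props
  rcases d_cases (F := F) with ⟨-, hd⟩ | ⟨ho, hd⟩
  · have htop : lsub F = ⊤ := Subgroup.index_eq_one.1 (index_lsub.trans hd)
    rw [htop, inf_top_eq, hcard, hd, one_mul]
  · have hrel : (lsub F).relIndex (tor a b) = 2 := by
      have := lsub_normal (F := F)
      have h2 := Subgroup.relIndex_dvd_index_of_normal (H := lsub F) (K := tor (F := F) a b)
      rw [index_lsub, hd] at h2
      rcases (Nat.dvd_prime Nat.prime_two).1 h2 with h | h
      · exact absurd (Subgroup.relIndex_eq_one.1 h) (hodd ho)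
      · exact h
    rw [← hcard, hd, Nat.card_congr (Subgroup.subgroupOfEquivOfLe (H := tor a b ⊓ lsub F) (K := tor a b) inf_le_left).toEquiv.symm,
      Subgroup.inf_subgroupOf_left]
    have := ((lsub F).subgroupOf (tor (F := F) a b)).index_mul_card
    rwa [← Subgroup.relIndex, hrel] at this

theorem exists_swap_lsub {a b : OnePoint K} {m : ℕ} (hm : IsPair F a b m) :
    ∃ w ∈ lsub F, emb K w • a = b ∧ emb K w • b = a := by
  obtain ⟨-, ⟨w, hw1, hw2⟩, hodd⟩ := hm.props
  rcases d_cases (F := F) with ⟨-, hd⟩ | ⟨ho, hd⟩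
  · exact ⟨w, (Subgroup.index_eq_one.1 (index_lsub.trans hd)).symm ▸ Subgroup.mem_top w, hw1, hw2⟩
  · by_cases hw : w ∈ lsub F
    · exact ⟨w, hw, hw1, hw2⟩
    obtain ⟨t, ht, htl⟩ := SetLike.not_le_iff_exists.1 (hodd ho)
    refine ⟨w * t, (Subgroup.mul_mem_iff_of_index_two (index_lsub.trans hd)).2 (iff_of_false hw htl), ?_, ?_⟩
    · rw [map_mul, mul_smul, (mem_tor.1 ht).1, hw1]
    · rw [map_mul, mul_smul, (mem_tor.1 ht).2, hw2]

theorem stab_lsub {a b : OnePoint K} {m n : ℕ} (hm : IsPair F a b m) (hn : d * n = m) :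
    Nat.card ↥(tor (F := F) a b ⊓ lsub F) = n ∧
      Nat.card ↥(pairStab (F := F) a b ⊓ lsub F) = 2 * n ∧
      Nonempty (↥(pairStab (F := F) a b ⊓ lsub F) ≃* DihedralGroup n) := by
  have hT : Nat.card ↥(tor (F := F) a b ⊓ lsub F) = n := by
    refine Nat.eq_of_mul_eq_mul_left (Nat.gcd_pos_of_pos_left (n := q - 1) two_pos) ?_
    rw [card_tor_inf hm, hn]
  obtain ⟨w, hwl, hw1, hw2⟩ := exists_swap_lsub hm
  let D := pairStab (F := F) a b ⊓ lsub F
  have : Finite (D.map (emb K)) :=
    Finite.of_equiv _ (D.equivMapOfInjective _ emb_injective).toEquiv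
  have horb : orbit (D.map (emb K)) a = {a, b} := by
    ext x
    constructor
    · rintro ⟨⟨_, g, hg, rfl⟩, rfl⟩
      rcases hg.1 with ⟨h1, -⟩ | ⟨h1, -⟩
      · exact Or.inl h1
      · exact Or.inr h1
    · rintro (rfl | rfl)
      · exact mem_orbit_self _
      · exact ⟨⟨emb K w, w, ⟨Or.inr ⟨hw1, hw2⟩, hwl⟩, rfl⟩, hw1⟩
  have hst : Nat.card (stabilizer (D.map (emb K)) a) = n := by
    rw [← hT]
    refine (Nat.card_eq_of_bijective (fun g : ↥(tor (F := F) a b ⊓ lsub F) =>
      (⟨⟨emb K (g : PGL(2, F)), ⟨(g : PGL(2, F)), ⟨Or.inl g.2.1, g.2.2⟩, rfl⟩⟩, (mem_tor.1 g.2.1).1⟩ :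
        stabilizer (D.map (emb K)) a)) ⟨?_, ?_⟩).symm
    · intro g g' e'
      exact Subtype.ext (emb_injective (K := K) (congrArg (fun x => (x.1 : PGL(2, K))) e'))
    · rintro ⟨⟨_, g, hg, rfl⟩, hx⟩
      rcases hg.1 with h' | ⟨h', -⟩
      · exact ⟨⟨g, h', hg.2⟩, rfl⟩
      · exact absurd (hx.symm.trans h') hm.1
  have hc : Nat.card (D.map (emb K)) = 2 * Nat.card (stabilizer (D.map (emb K)) a) := by
    rw [← card_orbit_mul a, horb, Set.ncard_pair hm.1]
  have e : D ≃* D.map (emb K) := D.equivMapOfInjective _ emb_injective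
  obtain ⟨iso⟩ := dihedral_of_pair _ hm.1 horb hc
  rw [hst] at hc iso
  exact ⟨hT, (Nat.card_congr e.toEquiv).trans hc, ⟨e.trans iso⟩⟩

set_option synthInstance.maxHeartbeats 400000 in
set_option synthInstance.maxSize 2000 in
theorem alt_four_no_six : ∀ r s : Equiv.Perm (Fin 4), Equiv.Perm.sign r = 1 → Equiv.Perm.sign s = 1 →
    r ^ 3 = 1 → s ^ 2 = 1 → s * r * s = r ^ 2 → r = 1 ∨ s = 1 := by
  decide +kernel

theorem alt_four_order : ∀ g : Equiv.Perm (Fin 4), Equiv.Perm.sign g = 1 → g ^ 2 = 1 ∨ g ^ 3 = 1 := by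
  decide +kernel

theorem perm_four_order : ∀ g : Equiv.Perm (Fin 4), g ^ 2 = 1 ∨ g ^ 3 = 1 ∨ g ^ 4 = 1 := by
  decide +kernel

theorem alt_five_order : ∀ g : Equiv.Perm (Fin 5), Equiv.Perm.sign g = 1 →
    g ^ 2 = 1 ∨ g ^ 3 = 1 ∨ g ^ 5 = 1 := by
  decide +kernel

theorem orderOf_le_of_pow {G : Type*} [Monoid G] {g : G} {k : ℕ} (hk : 0 < k) (h : g ^ k = 1) :
    orderOf g ≤ k :=
  orderOf_le_of_pow_eq_one hk h

theorem orderOf_alt_four (g : alternatingGroup (Fin 4)) : orderOf g ≤ 3 := by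
  rw [← Subgroup.orderOf_coe]
  rcases alt_four_order g.1 g.2 with h | h
  · exact (orderOf_le_of_pow two_pos h).trans (by norm_num)
  · exact orderOf_le_of_pow three_pos h

theorem orderOf_perm_four (g : Equiv.Perm (Fin 4)) : orderOf g ≤ 4 := by
  rcases perm_four_order g with h | h | h
  · exact (orderOf_le_of_pow two_pos h).trans (by norm_num)
  · exact (orderOf_le_of_pow three_pos h).trans (by norm_num)
  · exact orderOf_le_of_pow (by norm_num) h

theorem orderOf_alt_five (g : alternatingGroup (Fin 5)) : orderOf g ≤ 5 := by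
  rw [← Subgroup.orderOf_coe]
  rcases alt_five_order g.1 g.2 with h | h | h
  · exact (orderOf_le_of_pow two_pos h).trans (by norm_num)
  · exact (orderOf_le_of_pow three_pos h).trans (by norm_num)
  · exact orderOf_le_of_pow (by norm_num) h

theorem subfield_card_pow (F₀ : Subfield F) : ∃ k, 1 ≤ k ∧ q = Nat.card F₀ ^ k := by
  refine ⟨Module.finrank F₀ F, Module.finrank_pos, ?_⟩
  rw [← Nat.card_eq_fintype_card]
  exact Module.natCard_eq_pow_finrank

/-- A subfield is everything or of order at most `√q`. -/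
theorem subfield_cases (F₀ : Subfield F) :
    Nat.card F₀ = q ∨ Nat.card F₀ ^ 2 ≤ q := by
  obtain ⟨k, hk, e⟩ := subfield_card_pow F₀
  rcases Nat.lt_or_ge k 2 with h | h
  · left
    rw [e, show k = 1 by omega, pow_one]
  · right
    rw [e]
    exact Nat.pow_le_pow_right Nat.card_pos h

section

theorem card_conj (H : Subgroup PGL(2, F)) (h : PGL(2, F)) :
    Nat.card (H.map (MulAut.conj h⁻¹).toMonoidHom) = Nat.card H :=
  (Nat.card_congr (H.equivMapOfInjective _ (MulAut.conj h⁻¹).injective).toEquiv).symm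

omit [Fintype F] in
theorem card_range_subPSL (F₀ : Subfield F) :
    Nat.card (subPSL F₀).range = Nat.card (ProjectiveSpecialLinearGroup (Fin 2) F₀) :=
  (Nat.card_congr (MonoidHom.ofInjective (subPSL_injective F₀)).toEquiv).symm

omit [Fintype F] in
theorem card_range_subPGL (F₀ : Subfield F) :
    Nat.card (subPGL F₀).range = Nat.card PGL(2, F₀) :=
  (Nat.card_congr (MonoidHom.ofInjective (subPGL_injective F₀)).toEquiv).symm

theorem range_subPSL_le (F₀ : Subfield F) : (subPSL F₀).range ≤ (subPGL F₀).range := by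
  rintro _ ⟨x, rfl⟩
  exact ⟨_, rfl⟩

/-- Facts about a subgroup of `lsub` of subfield type. -/
theorem subfield_type {H : Subgroup PGL(2, F)} (hH : H ≤ lsub F) (F₀ : Subfield F) (h : PGL(2, F))
    (he : H.map (MulAut.conj h⁻¹).toMonoidHom = (subPGL F₀).range ∨
      H.map (MulAut.conj h⁻¹).toMonoidHom = (subPSL F₀).range) :
    (∀ g ∈ H, orderOf g ≤ Nat.card F₀ + 1) ∧
      Nat.card H ≤ Nat.card F₀ * (Nat.card F₀ - 1) * (Nat.card F₀ + 1) ∧
      (Nat.card F₀ = q → H = lsub F) := by
  classical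
  have hle : H.map (MulAut.conj h⁻¹).toMonoidHom ≤ (subPGL F₀).range := by
    rcases he with e | e <;> rw [e]
    exact range_subPSL_le F₀
  have hPGL : Nat.card PGL(2, F₀) = Nat.card F₀ * (Nat.card F₀ - 1) * (Nat.card F₀ + 1) := by
    rw [Linear.card_PGL_eq_card_SL, Linear.card_SL_two, Nat.card_eq_fintype_card]
  refine ⟨fun g hg => ?_, ?_, fun heq => ?_⟩
  · obtain ⟨x, hx⟩ := hle (Subgroup.mem_map_of_mem _ hg)
    have e1 : orderOf (subPGL F₀ x) = orderOf g := by
      rw [hx]; exact (MulAut.conj h⁻¹).orderOf_eq g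
    rw [← e1, orderOf_injective _ (subPGL_injective F₀), Nat.card_eq_fintype_card]
    exact orderOf_le_card_succ x
  · rw [← card_conj H h, ← hPGL, ← card_range_subPGL]
    exact Subgroup.card_le_of_le hle
  · refine Subgroup.eq_of_le_of_card_ge hH ?_
    have h1 : Nat.card (lsub F) ≤ Nat.card (ProjectiveSpecialLinearGroup (Fin 2) F₀) := by
      have hd := d_mul_card_lsub (F := F)
      have h0 := Linear.card_PSL_mul (F := F₀) (ι := Fin 2)
      rw [Linear.card_SL_two, Fintype.card_fin, ← Nat.card_eq_fintype_card, heq] at h0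
      exact le_of_eq (Nat.eq_of_mul_eq_mul_left (Nat.gcd_pos_of_pos_left (n := q - 1) two_pos) (hd.trans h0.symm))
    refine h1.trans ?_
    rw [← card_conj H h, ← card_range_subPSL]
    rcases he with e | e <;> rw [e]
    exact Subgroup.card_le_of_le (range_subPSL_le F₀)

variable [IsAlgClosed K]

/-- The dihedral subgroups are maximal in `lsub`. -/
theorem stab_maximal (p : ℕ) [Fact p.Prime] [CharP F p] {a b : OnePoint K} {m n : ℕ} (hm : IsPair F a b m) (hn : d * n = m)
    (hn3 : 3 ≤ n) (h24 : n ≤ 4 → ¬ 24 ∣ Nat.card (lsub F))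
    (h60 : n ≤ 5 → Nat.card (lsub F) ≤ 60)
    (hF₀ : ∀ k, 4 ≤ k → k ^ 2 ≤ q → (Odd q → Odd k) → k + 1 < n)
    {H : Subgroup PGL(2, F)} (hle : pairStab (F := F) a b ⊓ lsub F ≤ H) (hH : H ≤ lsub F) :
    H = pairStab (F := F) a b ⊓ lsub F ∨ H = lsub F := by
  classical
  obtain ⟨hT, hD, ⟨eD⟩⟩ := stab_lsub hm hn
  have : IsCyclic ↥(tor (F := F) a b ⊓ lsub F) :=
    have := hm.isCyclic
    isCyclic_of_injective (Subgroup.inclusion (inf_le_left : tor (F := F) a b ⊓ lsub F ≤ tor a b))
      (Subgroup.inclusion_injective _)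
  obtain ⟨t, ht⟩ := IsCyclic.exists_ofOrder_eq_natCard (α := ↥(tor (F := F) a b ⊓ lsub F))
  rw [hT, ← Subgroup.orderOf_coe] at ht
  have htH : (t : PGL(2, F)) ∈ H := hle ⟨Or.inl t.2.1, t.2.2⟩
  have ht2 : (t : PGL(2, F)) ^ 2 ≠ 1 := fun e => by
    have := orderOf_le_of_pow_eq_one two_pos e; omega
  obtain ⟨hta, htb⟩ := mem_tor.1 t.2.1
  have hsqa : emb K ((t : PGL(2, F)) ^ 2) • a = a := by
    rw [pow_two, map_mul, mul_smul, hta, hta]
  have hsqb : emb K ((t : PGL(2, F)) ^ 2) • b = b := by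
    rw [pow_two, map_mul, mul_smul, htb, htb]
  have hfix : ∀ c, emb K ((t : PGL(2, F)) ^ 2) • c = c → c = a ∨ c = b := by
    intro c hc
    by_contra hne
    push Not at hne
    exact ht2 (emb_injective (K := K) (by
      rw [map_one]
      exact eq_one_of_three hm.1 hne.1.symm hne.2.symm hsqa hsqb hc))
  have horder : ∀ k, (∀ g : H, orderOf g ≤ k) → n ≤ k := fun k hk => by
    have := hk ⟨_, htH⟩
    rwa [← Subgroup.orderOf_coe, ht] at this
  rcases classifyF (K := K) (p := p) H with ⟨a', b', m', hp, hc, hab, hl, hdvd⟩ |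
    ⟨a', b', m', n', hab, hl, hn', hpn, hdvd, hcard, hiso⟩ | ⟨x, hfixx, hp⟩ |
    ⟨hp, hcard, ⟨iso⟩⟩ | ⟨hp, hcard, ⟨iso⟩⟩ | ⟨hp, hcard, ⟨iso⟩⟩ |
    ⟨F₀, h, h4, he⟩ | ⟨F₀, h, h4, hodd, he⟩
  · exfalso
    have : IsCyclic ↥(pairStab (F := F) a b ⊓ lsub F) :=
      isCyclic_of_injective (Subgroup.inclusion hle) (Subgroup.inclusion_injective _)
    exact DihedralGroup.not_isCyclic (n := n) (by omega) (isCyclic_of_surjective eD eD.surjective)
  · left
    refine le_antisymm (le_inf ?_ hH) hle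
    have hsq : emb K ((t : PGL(2, F)) ^ 2) • a' = a' ∧ emb K ((t : PGL(2, F)) ^ 2) • b' = b' := by
      rcases hl htH with ⟨h1, h2⟩ | ⟨h1, h2⟩ <;>
        simp only [pow_two, map_mul, mul_smul, h1, h2, and_self]
    intro g hg
    rcases hfix _ hsq.1 with rfl | rfl <;> rcases hfix _ hsq.2 with rfl | rfl
    · exact absurd rfl hab.1
    · exact hl hg
    · rcases hl hg with ⟨h1, h2⟩ | ⟨h1, h2⟩
      · exact Or.inl ⟨h2, h1⟩
      · exact Or.inr ⟨h2, h1⟩
    · exact absurd rfl hab.1
  · exfalso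
    obtain ⟨w, hwl, hw1, hw2⟩ := exists_swap_lsub hm
    have hwH : w ∈ H := hle ⟨Or.inr ⟨hw1, hw2⟩, hwl⟩
    have h1 : ∀ g ∈ H, emb K g • pt₀ K x = pt₀ K x := fun g hg => by rw [emb_pt, hfixx g hg]
    have h2 : emb K ((t : PGL(2, F)) ^ 2) • pt₀ K x = pt₀ K x := h1 _ (pow_mem htH 2)
    have h3 := h1 w hwH
    rcases hfix _ h2 with e | e <;> rw [e] at h3
    · exact hm.1 (h3.symm.trans hw1)
    · exact hm.1 (hw2.symm.trans h3)
  · exfalso
    have hn' := horder 3 fun g => by
      rw [← iso.orderOf_eq]; exact orderOf_alt_four _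
    obtain rfl : n = 3 := by omega
    let j : DihedralGroup 3 →* Equiv.Perm (Fin 4) :=
      ((alternatingGroup (Fin 4)).subtype.comp iso.toMonoidHom).comp
        ((Subgroup.inclusion hle).comp eD.symm.toMonoidHom)
    have hj : Function.Injective j :=
      (Subtype.val_injective.comp iso.injective).comp
        ((Subgroup.inclusion_injective hle).comp eD.symm.injective)
    have hsign : ∀ g, Equiv.Perm.sign (j g) = 1 := fun g =>
      (iso (Subgroup.inclusion hle (eD.symm g))).2
    rcases alt_four_no_six (j (.r 1)) (j (.sr 0)) (hsign _) (hsign _)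
      (by rw [← map_pow, show (DihedralGroup.r 1 : DihedralGroup 3) ^ 3 = 1 by decide, map_one])
      (by rw [← map_pow, show (DihedralGroup.sr 0 : DihedralGroup 3) ^ 2 = 1 by decide, map_one])
      (by rw [← map_mul, ← map_mul, ← map_pow]; congr 1) with e | e
    · exact absurd (hj (e.trans (map_one j).symm)) (by decide)
    · exact absurd (hj (e.trans (map_one j).symm)) (by decide)
  · exfalso
    have hn' := horder 4 fun g => by
      rw [← iso.orderOf_eq]; exact orderOf_perm_four _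
    exact h24 hn' (hcard ▸ Subgroup.card_dvd_of_le hH)
  · right
    have hn' := horder 5 fun g => by
      rw [← iso.orderOf_eq]; exact orderOf_alt_five _
    exact Subgroup.eq_of_le_of_card_ge hH (hcard ▸ h60 hn')
  · obtain ⟨ho, -, htop⟩ := subfield_type hH F₀ h (.inl he)
    rcases subfield_cases F₀ with hc | hc
    · exact .inr (htop hc)
    · exfalso
      have h1 := ho _ htH
      rw [ht] at h1
      refine absurd h1 (not_le.2 (hF₀ _ h4 hc fun hq => ?_))
      obtain ⟨k, hk, e⟩ := subfield_card_pow F₀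
      rw [e] at hq
      exact (Nat.odd_pow_iff (by omega)).1 hq
  · obtain ⟨ho, -, htop⟩ := subfield_type hH F₀ h (.inr he)
    rcases subfield_cases F₀ with hc | hc
    · exact .inr (htop hc)
    · exfalso
      have h1 := ho _ htH
      rw [ht] at h1
      exact absurd h1 (not_le.2 (hF₀ _ h4 hc fun _ => hodd))

end

/-- Transfer of maximality from `lsub` to `PSL`. -/
theorem exists_coatom {D : Subgroup PGL(2, F)} (hD : D ≤ lsub F) (hne : D ≠ lsub F) {X : Type*} [Group X]
    (e : D ≃* X)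
    (hmax : ∀ H : Subgroup PGL(2, F), D ≤ H → H ≤ lsub F → H = D ∨ H = lsub F) :
    ∃ H : Subgroup (ProjectiveSpecialLinearGroup (Fin 2) F), IsCoatom H ∧ Nonempty (H ≃* X) := by
  let φ : ProjectiveSpecialLinearGroup (Fin 2) F →* PGL(2, F) := ProjectiveSpecialLinearGroup.toPGL
  have hφ : Function.Injective φ := ProjectiveSpecialLinearGroup.toPGL_injective
  have hmap : (D.comap φ).map φ = D :=
    Subgroup.map_comap_eq_self (by rw [range_toPGL]; exact hD)
  refine ⟨D.comap φ, ⟨fun h => hne ?_, fun H hH => ?_⟩, ⟨?_⟩⟩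
  · rw [← hmap, h, ← MonoidHom.range_eq_map]; exact range_toPGL
  · have h1 : D ≤ H.map φ := hmap.symm.le.trans (Subgroup.map_mono hH.le)
    rcases hmax _ h1 (range_toPGL (F := F) ▸ Subgroup.map_le_range φ H) with h | h
    · exact absurd (Subgroup.map_injective hφ (h.trans hmap.symm)) hH.ne'
    · exact Subgroup.map_injective hφ (h.trans (range_toPGL.symm.trans (MonoidHom.range_eq_map φ)))
  · exact ((D.comap φ).equivMapOfInjective φ hφ).trans ((MulEquiv.subgroupCongr hmap).trans e)

theorem exists_conjugate_pair (L : Type*) [Field L] [DecidableEq L] [Algebra F L] [IsAlgClosed L] :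
    ∃ a b : OnePoint L, IsPair F a b (q + 1) := by
  classical
  obtain ⟨p', hp'⟩ := CharP.exists F
  obtain ⟨e', hpp, hcard⟩ := FiniteField.card F p'
  have := Fact.mk hpp
  have : CharP L p' := charP_of_injective_algebraMap (algebraMap F L).injective p'
  have hq2 : 1 < q ^ 2 := Nat.one_lt_pow two_ne_zero Fintype.one_lt_card
  have hsep : (Polynomial.X ^ q ^ 2 - Polynomial.X : Polynomial L).Separable :=
    galois_poly_separable p' _ (hcard ▸ dvd_pow (dvd_pow_self p' e'.ne_zero) two_ne_zero)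
  have hdeg : (Polynomial.X ^ q ^ 2 - Polynomial.X : Polynomial L).natDegree = q ^ 2 :=
    FiniteField.X_pow_card_sub_X_natDegree_eq L hq2
  have hroots : (Polynomial.X ^ q ^ 2 - Polynomial.X : Polynomial L).roots.toFinset.card = q ^ 2 := by
    rw [Multiset.toFinset_card_of_nodup (Polynomial.nodup_roots hsep),
      ← (IsAlgClosed.splits _).natDegree_eq_card_roots, hdeg]
  obtain ⟨x, hx, hx'⟩ : ∃ x : L, x ^ q ^ 2 = x ∧ x ^ q ≠ x := by
    by_contra hc
    push Not at hc
    have hsub : (Polynomial.X ^ q ^ 2 - Polynomial.X : Polynomial L).roots.toFinset ⊆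
        (Polynomial.X ^ q - Polynomial.X : Polynomial L).roots.toFinset := by
      intro y hy
      simp only [Multiset.mem_toFinset, Polynomial.mem_roots', Polynomial.IsRoot, Polynomial.eval_sub,
        Polynomial.eval_pow, Polynomial.eval_X, sub_eq_zero] at hy ⊢
      exact ⟨FiniteField.X_pow_card_sub_X_ne_zero L Fintype.one_lt_card, hc y hy.2⟩
    have h1 := Finset.card_le_card hsub
    have h2 : (Polynomial.X ^ q - Polynomial.X : Polynomial L).roots.toFinset.card ≤ q :=
      (Multiset.toFinset_card_le _).trans ((Polynomial.card_roots' _).trans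
        (FiniteField.X_pow_card_sub_X_natDegree_eq L Fintype.one_lt_card).le)
    rw [hroots] at h1
    have := Fintype.one_lt_card (α := F)
    nlinarith [h1.trans h2]
  refine ⟨(x : OnePoint L), ((x ^ q : L) : OnePoint L), fun h => hx' (OnePoint.coe_eq_coe.1 h).symm,
    Or.inr ⟨rfl, ?_, rfl⟩⟩
  show ((_ : L) : OnePoint L) = _
  rw [OnePoint.coe_eq_coe]
  show (x ^ q) ^ q = x
  rw [← pow_mul, ← pow_two, hx]

/-- `PSL(2, q)` has the dihedral maximal subgroup for a pair with torus order `m`. -/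
theorem exists_dihedral_coatom (m n : ℕ) (hq2 : q ≠ 2) (hn : d * n = m)
    (hm : m = q + 1 ∨ (m = q - 1 ∧ 3 ≤ n)) (h2 : n = 2 → q = 3) (hn2 : 2 ≤ n)
    (h24 : n ≤ 4 → ¬ 24 ∣ Nat.card (lsub F)) (h60 : n ≤ 5 → Nat.card (lsub F) ≤ 60)
    (hF₀ : 3 ≤ n → ∀ k, 4 ≤ k → k ^ 2 ≤ q → (Odd q → Odd k) → k + 1 < n) :
    ∃ H : Subgroup (ProjectiveSpecialLinearGroup (Fin 2) F),
      IsCoatom H ∧ Nonempty (H ≃* DihedralGroup n) := by
  classical
  obtain ⟨p', hp'⟩ := CharP.exists F
  obtain ⟨e', hpp, -⟩ := FiniteField.card F p'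
  have := Fact.mk hpp
  let L := AlgebraicClosure F
  obtain ⟨a, b, hab⟩ : ∃ a b : OnePoint L, IsPair F a b m := by
    rcases hm with rfl | ⟨rfl, -⟩
    · exact exists_conjugate_pair L
    · exact ⟨_, _, IsPair.rational (K := L) (OnePoint.infty_ne_coe (0 : F))⟩
  obtain ⟨-, hD, ⟨e⟩⟩ := stab_lsub hab hn
  have hd := d_mul_card_lsub (F := F)
  have hq := Fintype.one_lt_card (α := F)
  have hle := Subgroup.card_le_of_le (inf_le_right : pairStab (F := F) a b ⊓ lsub F ≤ lsub F)
  refine exists_coatom inf_le_right (fun h => ?_) e fun H hle' hH => ?_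
  · rw [h] at hD
    rw [hD] at hd
    have : d * (2 * n) = 2 * m := by rw [← hn]; ring
    rw [this] at hd
    obtain ⟨c, hc⟩ : ∃ c, q = c + 3 := ⟨q - 3, by omega⟩
    rcases hm with rfl | ⟨rfl, hn3⟩ <;>
    · rw [hc, show c + 3 - 1 = c + 2 by omega] at hd
      have h6 : 6 ≤ (c + 3) * (c + 2) := Nat.mul_le_mul (Nat.le_add_left 3 c) (Nat.le_add_left 2 c)
      have h7 := Nat.mul_le_mul_right (c + 3 + 1) h6
      omega
  · rcases Nat.lt_or_ge n 3 with h | h
    · have hn' : n = 2 := by omega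
      have hq3 := h2 hn'
      have hl : Nat.card (lsub F) = 12 := by
        rw [hq3, show Nat.gcd 2 (3 - 1) = 2 from rfl] at hd
        omega
      have h1 := Subgroup.card_dvd_of_le hle'
      have h3 := Subgroup.card_dvd_of_le hH
      rw [hD, hn'] at h1
      rw [hl] at h3
      have : Nat.card H ∈ ({4, 12} : Finset ℕ) := by
        have := Nat.le_of_dvd (by norm_num) h3
        interval_cases Nat.card H <;> simp_all
      rcases Finset.mem_insert.1 this with h4 | h4
      · exact .inl (Subgroup.eq_of_le_of_card_ge hle' (by rw [hD, hn', h4])).symm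
      · rw [Finset.mem_singleton] at h4
        exact .inr (Subgroup.eq_of_le_of_card_ge hH (by rw [hl, h4]))
    · exact stab_maximal p' hab hn h h24 h60 (hF₀ h) hle' hH

end Cfsg.Agent.PSLTwo25.DicksonPSL
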